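import Cfsg.Agent.Lib.HJSyl.Seven
import Cfsg.Agent.Lib.HJSyl.TDataOf
import Cfsg.Agent.S1721

set_option autoImplicit false
set_option linter.unusedSectionVars false
set_option linter.unusedVariables false
set_option linter.style.longLine false

/-! From the hypotheses of the Hall-Janko type and the structure of the centralizers of the second
class of involutions to the structure `HJ`; the three Sylow theorems. -/

namespace Cfsg.Agent.Lib.HJSyl.Bridge

open Subgroup Cfsg.Agent.Lib.HJSyl.Setup Cfsg.Agent.Lib.HJSyl.TDataOf Cfsg.Agent.Lib.HJOrder.Local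

variable {G : Type*} [Group G] [Finite G]

/-- The statement of the structure of the centralizers. -/
def SecondInv (z : G) : Prop :=
  ∀ t : G, orderOf t = 2 → ¬ IsConj t z →
    Nonempty (↥(Subgroup.centralizer ({t} : Set G)) ≃* (Multiplicative (ZMod 2) × Multiplicative (ZMod 2)) × alternatingGroup (Fin 5)) ∧
    Nonempty (↥(Subgroup.normalizer (((Cfsg.pCore 2 ↥(Subgroup.centralizer ({t} : Set G))).map (Subgroup.subtype (Subgroup.centralizer ({t} : Set G))) : Subgroup G) : Set G)) ≃* alternatingGroup (Fin 4) × alternatingGroup (Fin 5))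

theorem four_of_sq {Q : Subgroup G} {z : G} (h : QData Q z) {x : G} (hx : x ∈ Q) : x ^ 4 = 1 := by
  have hz : z ^ 2 = 1 := h.z_sq
  rcases h.sq x hx with e | e
  · calc x ^ 4 = (x ^ 2) ^ 2 := by group
      _ = 1 := by rw [e]; group
  · calc x ^ 4 = (x ^ 2) ^ 2 := by group
      _ = 1 := by rw [e, hz]

theorem hj_of (z : G) (hz : orderOf z = 2) (Q : Subgroup (Subgroup.centralizer ({z} : Set G))) [Q.Normal]
    (hF : Cfsg.generalizedFittingSubgroup (Subgroup.centralizer ({z} : Set G)) = Q) (hQ : Cfsg.IsExtraspecial 2 Q)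
    (hcard : Nat.card Q = 2 ^ 5)
    (e : (Subgroup.centralizer ({z} : Set G)) ⧸ Q ≃* Cfsg.Omega (ZMod 2) (Cfsg.quadFormMinus 1 (ZMod 2) 1 1))
    (hnwc : ∃ g : G, (∃ hq : g * z * g⁻¹ ∈ Subgroup.centralizer ({z} : Set G), (⟨g * z * g⁻¹, hq⟩ : Subgroup.centralizer ({z} : Set G)) ∈ Q) ∧ g * z * g⁻¹ ≠ z)
    (hcl : ∃ x y : G, orderOf x = 2 ∧ orderOf y = 2 ∧ ¬ IsConj x y)
    (hS : SecondInv z) : HJ z (Q.map (Subgroup.centralizer ({z} : Set G)).subtype) := by
  obtain ⟨π, hs, hne⟩ := Cfsg.Agent.Lib.HJT.Setup.setup z hz Q hF hQ hcard e hnwc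
  set Q' := Q.map (Subgroup.centralizer ({z} : Set G)).subtype with hQ'
  have key : ∀ (p : ℕ), p.Coprime 4 → p ≠ 1 → ∀ (v g : G), orderOf v = p → v * z = z * v → g * z = z * g → (∀ (a b : A5), a ^ p = 1 → a ≠ 1 → a * b = b * a → ∃ k : ℕ, b = a ^ k) → g * v = v * g →
      ∃ i : ℕ, ∃ q ∈ Q', g = v ^ i * q := by
    intro p hp hp1 v g hv hvz hgz hA5 hgv
    set cv : ↥(Subgroup.centralizer ({z} : Set G)) := ⟨v, mem_centralizer_singleton_iff.mpr hvz⟩ with hcv
    set cg : ↥(Subgroup.centralizer ({z} : Set G)) := ⟨g, mem_centralizer_singleton_iff.mpr hgz⟩ with hcg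
    have hvp : v ^ p = 1 := by rw [← hv]; exact pow_orderOf_eq_one v
    have hv1 : π cv ^ p = 1 := by
      rw [← map_pow]
      have : cv ^ p = 1 := Subtype.ext hvp
      rw [this, map_one]
    have hv2 : π cv ≠ 1 := by
      intro e1
      have h1 : v ∈ Q' := (hs.ker cv).mp e1
      have h2 := four_of_sq hs.q h1
      have h3 : v = 1 := by
        have := (pow_gcd_eq_one).mpr ⟨hvp, h2⟩
        rwa [hp.gcd_eq_one, pow_one] at this
      exact hp1 (by rw [← hv, h3, orderOf_one])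
    have hcomm : π cv * π cg = π cg * π cv := by
      rw [← map_mul, ← map_mul]
      congr 1
      exact Subtype.ext hgv.symm
    obtain ⟨k, hk⟩ := hA5 _ _ hv1 hv2 hcomm
    have h1 : π (cv ^ k)⁻¹ * π cg = 1 := by
      rw [map_inv, map_pow, hk]; group
    rw [← map_mul] at h1
    have h2 : (((cv ^ k)⁻¹ * cg : ↥(Subgroup.centralizer ({z} : Set G))) : G) ∈ Q' := (hs.ker _).mp h1
    refine ⟨k, _, h2, ?_⟩
    simp [hcv, hcg]
  refine
    { card := Cfsg.Agent.S1721.result z hz Q hF hQ hcard e hnwc hcl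
      q := hs.q
      n := hs.n
      cardC := hs.card_C
      nn := hs.nn
      c3 := ?_
      c5 := ?_
      nwc := hne
      tdata := ?_
      ext := ?_ }
  · intro v g hv hvz hgz hgv
    refine key 3 (by norm_num) (by norm_num) v g hv hvz hgz ?_ hgv
    intro a b h1 h2 h3
    obtain ⟨k, hk⟩ := a5_cent3 a b h1 h2 h3
    exact ⟨k, hk⟩
  · intro v g hv hvz hgz hgv
    refine key 5 (by norm_num) (by norm_num) v g hv hvz hgz ?_ hgv
    intro a b h1 h2 h3
    obtain ⟨k, hk⟩ := a5_cent5 a b h1 h2 h3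
    exact ⟨k, hk⟩
  · intro t ht htz
    obtain ⟨⟨ψ⟩, ⟨φ⟩⟩ := hS t ht htz
    exact tdata_of ht ψ φ
  · obtain ⟨x, y, hx, hy, hxy⟩ := hcl
    by_cases h1 : IsConj x z
    · refine ⟨y, hy, fun h2 => hxy (h1.trans h2.symm)⟩
    · exact ⟨x, hx, h1⟩

section final

open Cfsg.Agent.Lib.HJSyl.Five Cfsg.Agent.Lib.HJSyl.Three Cfsg.Agent.Lib.HJSyl.Seven

/-- Sylow 5. -/
theorem s1722_of {z : G} {Q : Subgroup G} (H : HJ z Q) (P : Sylow 5 G) :
    Subgroup.centralizer ((P : Subgroup G) : Set G) = P ∧ Nat.card P = 25 ∧ Nat.card (Subgroup.normalizer ((P : Subgroup G) : Set G)) = 300 ∧ ∃ X Y : Subgroup G, Nat.card X = 5 ∧ Nat.card Y = 5 ∧ (∀ g : G, X.map (MulAut.conj g).toMonoidHom ≠ Y) ∧ ∀ W : Subgroup G, Nat.card W = 5 → ∃ g : G, W.map (MulAut.conj g).toMonoidHom = X ∨ W.map (MulAut.conj g).toMonoidHom = Y := by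
  obtain ⟨hC, hc, hN, yA, yB, hA, hB, hCA, hCB, hcl⟩ := five_main H P
  refine ⟨hC, hc, hN, zpowers yA, zpowers yB, by rw [Nat.card_zpowers, hA], by rw [Nat.card_zpowers, hB], ?_, hcl⟩
  intro g hg
  have hmap : (zpowers yA).map (MulAut.conj g).toMonoidHom = zpowers (g * yA * g⁻¹) := smul_zpowers g yA
  rw [hmap] at hg
  have h1 := cent_eq_of_zpowers hg
  have h2 : Nat.card (centralizer ({g * yA * g⁻¹} : Set G)) = Nat.card (centralizer ({yB} : Set G)) := by rw [h1]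
  rw [card_cent_conj, hCA, hCB] at h2
  omega

/-- Sylow 3. -/
theorem s1723_of {z : G} {Q : Subgroup G} (H : HJ z Q) (P : Sylow 3 G) :
    Cfsg.IsExtraspecial 3 (P : Subgroup G) ∧ Nat.card P = 27 ∧ Nat.card (Subgroup.normalizer ((P : Subgroup G) : Set G)) = 216 ∧ ∃ a b : G, orderOf a = 3 ∧ orderOf b = 3 ∧ ¬ IsConj a b ∧ ∀ c : G, orderOf c = 3 → IsConj c a ∨ IsConj c b := by
  obtain ⟨a, b, ha, hb, hab, hcl, -, -, hP⟩ := three_main H
  obtain ⟨hN, hna⟩ := hP P
  have h27 := card_syl3 H.card P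
  refine ⟨?_, h27, hN, a, b, ha, hb, hab, hcl⟩
  apply Cfsg.Agent.Lib.HJSyl.Order27.isExtraspecial_27 h27
  intro hall
  apply hna
  intro x hx y hy
  exact congrArg Subtype.val (hall ⟨x, hx⟩ ⟨y, hy⟩)

end final

end Cfsg.Agent.Lib.HJSyl.Bridge
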